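import Cfsg.Agent.H620.RIM.Nb
import Cfsg.Agent.H51.Mult
import Cfsg.Agent.H990.TC.Univ

/-!
# S4816: the counting tools with any lower bound of the number of characters (helper878, after helper620, helper849)

* `Cnt f m S` : for every perfect central extension of `S` with kernel of order `m` and every faithful character of the
  kernel there are at least `f` irreducible characters over it;
* `nb_of_dz_f`, `nb_of_cent_f` : the defect zero count and the centralizer count;
* `LGood m g` : in every perfect central extension with kernel of order `m`, the lifts of elements which commute with `g`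
  commute with the lifts of `g`; `cnt_of_list` : pairwise not conjugate elements with `LGood m`;
* `pow_of_good` : the order of the commutators in a perfect central extension, from one other extension.
-/

set_option autoImplicit false
set_option linter.unusedSectionVars false

namespace Cfsg.Agent.H878.RIM

open Cfsg Subgroup Finset
open Cfsg.Agent.Characters.Core
open Cfsg.Agent.SmallSimple.ThetaSetup Cfsg.Agent.SmallSimple.ThetaOrtho Cfsg.Agent.SmallSimple.ThetaCount
open Cfsg.Agent.SmallSimple.TheoremC Cfsg.Agent.SmallSimple.TheoremCCor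
open Cfsg.Agent.SmallSimple.SingularCount
open Cfsg.Agent.H622.Over Cfsg.Agent.H849.RIM Cfsg.Agent.H665.RIM Cfsg.Agent.H620.RIM

universe u v

/-- at least `f` irreducible characters over every faithful character of the kernel -/
def Cnt (f m : ℕ) (S : Type u) [Group S] : Prop :=
  ∀ (G : Type u) [Group G] [Finite G] (Z : Subgroup G) [Z.Normal], Z ≤ center G → ((G ⧸ Z) ≃* S) → Nat.card Z = m →
    commutator G = ⊤ → ∀ c : Z →* ℂˣ, Function.Injective c →
      f ≤ Nat.card {χ : IrrCharacter G // Lies Z c (χ : G → ℂ)}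

section tool

variable {G : Type u} [Group G] [Finite G] {p : ℕ} [Fact p.Prime] {P : Sylow p G} {K : Subgroup G}

/-- A character vanishing on the `p`-singular elements, `p ∣ |G|`, has degree divisible by `p`. -/
theorem exists_dz_f (hK : IsComp p (P : Subgroup G) K) (hP : Nat.card P = p) {Z : Subgroup G} [Z.Normal]
    (hZ : Z ≤ center G) (hZK : Z ≤ K) (c : Z →* ℂˣ) {w : ℕ}
    (hw : (centralizer ((P : Subgroup G) : Set G)).relIndex (normalizer ((P : Subgroup G) : Set G)) = w)
    (A : Finset (IrrCharacter K)) (hA : ∀ θ : IrrCharacter K, LiesK Z c K (θ : K → ℂ) → θ ∈ A)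
    {f : ℕ} (hf : f ≤ Nat.card {χ : IrrCharacter G // Lies Z c (χ : G → ℂ)})
    (hlt : ∑ θ ∈ A, (Nat.card (stabAct hK (θ : K → ℂ)) ^ 2 + (p - 1)) < w * f) :
    ∃ χ : IrrCharacter G, Lies Z c (χ : G → ℂ) ∧ ∀ g : G, p ∣ orderOf g → (χ : G → ℂ) g = 0 := by
  classical
  by_contra hcon
  push Not at hcon
  have := finite_irr (G := G)
  have := Fintype.ofFinite (IrrCharacter G)
  have h1 := card_mul_le hK hP hZ hZK hw A hA (Finset.univ.filter fun χ : IrrCharacter G => Lies Z c (χ : G → ℂ))
    (fun χ hχ => ⟨(mem_filter.1 hχ).2, by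
      obtain ⟨g, hg, hne⟩ := hcon χ (mem_filter.1 hχ).2
      exact ⟨g, hg, hne⟩⟩)
  have h2 := hf
  rw [Nat.card_eq_fintype_card, Fintype.card_subtype] at h2
  have h3 := Nat.mul_le_mul_left w h2
  omega

/-- **Defect zero over a central character, `p ∥ |G|`.**  `S = G ⧸ Z`, `y ∈ S` of order `p`, `|C_S(y)| = p k`,
`|N_S(⟨y⟩)| = w p k`, the complement of `⟨y⟩` in `C_S(y)` has at most `k'` classes, and there are more than
`k' (w ^ 2 + p - 1) / w` classes of `S` with `MGood`. -/
theorem exists_dz_quot_f {Z : Subgroup G} [Z.Normal] (hZ : Z ≤ center G) (hZp : ¬ p ∣ Nat.card Z)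
    (hsq : ¬ p ^ 2 ∣ Nat.card (G ⧸ Z)) {y : G ⧸ Z} (hy : orderOf y = p) {k w k' : ℕ}
    (hC : Nat.card (centralizer ({y} : Set (G ⧸ Z))) = p * k)
    (hN : Nat.card (normalizer ((zpowers y : Subgroup (G ⧸ Z)) : Set (G ⧸ Z))) = w * (p * k)) (c : Z →* ℂˣ)
    {f : ℕ} (hf : f ≤ Nat.card {χ : IrrCharacter G // Lies Z c (χ : G → ℂ)})
    (hk' : ∀ C₀ : Subgroup (G ⧸ Z), C₀ ≤ centralizer {y} → Nat.card C₀ = k → Nat.card (ConjClasses C₀) ≤ k')
    (hlt : k' * (w ^ 2 + (p - 1)) < w * f) :
    ∃ χ : IrrCharacter G, Lies Z c (χ : G → ℂ) ∧ p ∣ charDegree (χ : G → ℂ) := by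
  classical
  have hp : p.Prime := Fact.out
  have hfin : Finite (IrrCharacter G) := finite_irr
  obtain ⟨u, rfl, hu⟩ := exists_lift hZp hy
  -- the Sylow subgroup
  have hcG := card_eq_card_quotient_mul_card_subgroup Z
  have hG2 : ¬ p ^ 2 ∣ Nat.card G := by
    rw [hcG]
    intro h
    have hco : (p ^ 2).Coprime (Nat.card Z) := Nat.Coprime.pow_left 2 ((hp.coprime_iff_not_dvd).2 hZp)
    exact hsq (hco.dvd_of_dvd_mul_right h)
  have hzp : IsPGroup p (zpowers u) := IsPGroup.of_card (n := 1) (by rw [Nat.card_zpowers, hu, pow_one])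
  obtain ⟨P, hPle⟩ := hzp.exists_le_sylow
  have hP : Nat.card P = p := by
    obtain ⟨n, hn⟩ := (IsPGroup.iff_card).1 P.2
    have h1 : Nat.card P ∣ Nat.card G := card_subgroup_dvd_card _
    have h2 : n < 2 := by
      by_contra h3
      push Not at h3
      exact hG2 ((pow_dvd_pow p h3).trans (hn ▸ h1))
    have h3 : p ∣ Nat.card P := by
      have := card_dvd_of_le hPle
      rwa [Nat.card_zpowers, hu] at this
    interval_cases n
    · rw [hn, pow_zero, Nat.dvd_one] at h3
      exact absurd h3 hp.one_lt.ne'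
    · rw [hn, pow_one]
  have hPz : (P : Subgroup G) = zpowers u := by
    symm
    refine eq_of_le_of_card_ge hPle ?_
    rw [Nat.card_zpowers, hu]
    exact hP.le
  obtain ⟨K, hK⟩ := exists_isComp P hP
  have huP : u ∈ (P : Subgroup G) := hPle (mem_zpowers u)
  have hu1 : u ≠ 1 := by
    rintro rfl
    rw [orderOf_one] at hu
    exact hp.one_lt.ne hu
  have hCP : centralizer ((P : Subgroup G) : Set G) = centralizer ({u} : Set G) :=
    (Blocks.CyclicOrtho.centralizer_eq P hP huP hu1).symm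
  -- the centralizer
  have hcent : centralizer ((P : Subgroup G) : Set G) =
      (centralizer ({(u : G ⧸ Z)} : Set (G ⧸ Z))).comap (QuotientGroup.mk' Z) := by
    rw [hCP]
    ext x
    rw [mem_centralizer_singleton_iff, mem_comap, mem_centralizer_singleton_iff]
    constructor
    · intro h
      have := congrArg (QuotientGroup.mk' Z) h
      simpa using this
    · intro h
      have h1 : (x : G ⧸ Z) * u * (x : G ⧸ Z)⁻¹ = (u : G ⧸ Z) ^ 1 := by
        have h2 : (x : G ⧸ Z) * u = u * x := h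
        rw [h2, mul_inv_cancel_right, pow_one]
      have h2 := comm_of_comm hZ hZp hu h1
      rw [pow_one, mul_inv_eq_iff_eq_mul] at h2
      exact h2
  have hnorm : normalizer ((P : Subgroup G) : Set G) =
      (normalizer ((zpowers (u : G ⧸ Z) : Subgroup (G ⧸ Z)) : Set (G ⧸ Z))).comap (QuotientGroup.mk' Z) := by
    have hPm : (P : Subgroup G).map (QuotientGroup.mk' Z) = zpowers (u : G ⧸ Z) := by
      rw [hPz, MonoidHom.map_zpowers]
      rfl
    apply le_antisymm
    · intro x hx
      rw [mem_comap, ← hPm]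
      exact Subgroup.le_normalizer_map _ (mem_map_of_mem _ hx)
    · intro x hx
      rw [mem_comap] at hx
      have h1 : (x : G ⧸ Z) * u * (x : G ⧸ Z)⁻¹ ∈ zpowers (u : G ⧸ Z) :=
        (mem_normalizer_iff.1 hx (u : G ⧸ Z)).1 (mem_zpowers _)
      obtain ⟨j, hj⟩ := mem_powers_iff_mem_zpowers.2 h1
      have h2 := comm_of_comm hZ hZp hu (x := x) (j := j) hj.symm
      refine mem_normalizer_fintype fun n hn => ?_
      have hn' : n ∈ zpowers u := by rw [← hPz]; exact hn
      obtain ⟨i, rfl⟩ := mem_powers_iff_mem_zpowers.2 hn'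
      show x * u ^ i * x⁻¹ ∈ (P : Subgroup G)
      rw [← conj_pow, h2, hPz]
      exact pow_mem (pow_mem (mem_zpowers u) j) i
  have hcC : Nat.card (centralizer ((P : Subgroup G) : Set G)) = p * k * Nat.card Z := by
    rw [hcent, card_comap, hC]
  have hcN : Nat.card (normalizer ((P : Subgroup G) : Set G)) = w * (p * k) * Nat.card Z := by
    rw [hnorm, card_comap, hN]
  have hcK : Nat.card K = k * Nat.card Z := by
    have h1 : Nat.card P * Nat.card K = Nat.card (centralizer ((P : Subgroup G) : Set G)) := by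
      rw [← Nat.card_prod]
      exact Nat.card_congr (prodEquiv hK hP).toEquiv
    rw [hP, hcC, mul_assoc] at h1
    exact Nat.eq_of_mul_eq_mul_left hp.pos h1
  have hZK : Z ≤ K := by
    intro z hz
    rw [hK]
    refine ⟨?_, fun h => hZp ?_⟩
    · rw [mem_centralizer_iff]
      intro g _
      exact mem_center_iff.1 (hZ hz) g
    · have h1 := _root_.orderOf_dvd_natCard (⟨z, hz⟩ : Z)
      rw [← orderOf_submonoid] at h1
      exact h.trans h1
  have hk0 : 0 < k := by
    rcases Nat.eq_zero_or_pos k with h | h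
    · rw [h, zero_mul] at hcK
      exact absurd hcK Nat.card_pos.ne'
    · exact h
  have hw : (centralizer ((P : Subgroup G) : Set G)).relIndex (normalizer ((P : Subgroup G) : Set G)) = w := by
    have h1 : centralizer ((P : Subgroup G) : Set G) ≤ normalizer ((P : Subgroup G) : Set G) :=
      centralizer_le_normalizer _
    have h2 := Subgroup.card_mul_index ((centralizer ((P : Subgroup G) : Set G)).subgroupOf
      (normalizer ((P : Subgroup G) : Set G)))
    rw [Nat.card_congr (subgroupOfEquivOfLe h1).toEquiv, hcC, hcN] at h2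
    have h3 : 0 < p * k * Nat.card Z := Nat.mul_pos (Nat.mul_pos hp.pos hk0) Nat.card_pos
    rw [Subgroup.relIndex]
    apply Nat.eq_of_mul_eq_mul_left h3
    rw [h2]
    ring
  have hfK : Finite (IrrCharacter K) := finite_irr
  have := Fintype.ofFinite (IrrCharacter K)
  set A : Finset (IrrCharacter K) := univ.filter fun θ => LiesK Z c K (θ : K → ℂ) with hA
  have hAk : A.card ≤ k' := by
    have hKle : K.map (QuotientGroup.mk' Z) ≤ centralizer ({(u : G ⧸ Z)} : Set (G ⧸ Z)) := by
      rw [map_le_iff_le_comap, ← hcent]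
      intro x hx
      exact ((hK x).1 hx).1
    have hKc : Nat.card (K.map (QuotientGroup.mk' Z)) = k := by
      have h1 : (K.map (QuotientGroup.mk' Z)).comap (QuotientGroup.mk' Z) = K := by
        rw [comap_map_eq, QuotientGroup.ker_mk', sup_eq_left]
        exact hZK
      have h2 := card_comap (K.map (QuotientGroup.mk' Z))
      rw [h1, hcK] at h2
      exact (Nat.eq_of_mul_eq_mul_right Nat.card_pos h2).symm
    exact (card_liesK_le_classes hZ hZK c A fun θ hθ => (mem_filter.1 hθ).2).trans (hk' _ hKle hKc)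
  have hsum : ∑ θ ∈ A, (Nat.card (stabAct hK (θ : K → ℂ)) ^ 2 + (p - 1)) ≤ k' * (w ^ 2 + (p - 1)) := by
    have hw0 : 0 < w := by
      rcases Nat.eq_zero_or_pos w with h | h
      · rw [h, zero_mul, zero_mul] at hcN
        exact absurd hcN Nat.card_pos.ne'
      · exact h
    calc ∑ θ ∈ A, (Nat.card (stabAct hK (θ : K → ℂ)) ^ 2 + (p - 1)) ≤ ∑ _θ ∈ A, (w ^ 2 + (p - 1)) := by
          refine Finset.sum_le_sum fun θ _ => Nat.add_le_add_right (Nat.pow_le_pow_left ?_ 2) _
          have h1 := card_stabAct_mul_card_orb hK hP θ.2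
          rw [hw] at h1
          exact Nat.le_of_dvd hw0 (h1 ▸ dvd_mul_right _ _)
      _ = A.card * (w ^ 2 + (p - 1)) := by rw [Finset.sum_const, smul_eq_mul]
      _ ≤ k' * (w ^ 2 + (p - 1)) := Nat.mul_le_mul_right _ hAk
  obtain ⟨χ, hl, h0⟩ := exists_dz_f hK hP hZ hZK c hw A (fun θ hθ => mem_filter.2 ⟨mem_univ _, hθ⟩) hf
    (lt_of_le_of_lt hsum hlt)
  refine ⟨χ, hl, ?_⟩
  obtain ⟨d, hd⟩ := exists_degree_eq (P : Subgroup G) (isIrr_isCharacter χ.2) fun x hx hx1 => h0 x (by
    rw [Blocks.CyclicOrtho.orderOf_eq P hP hx hx1])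
  rw [hP] at hd
  refine ⟨d, ?_⟩
  have h1 : ((charDegree (χ : G → ℂ) : ℕ) : ℂ) = ((p * d : ℕ) : ℂ) := by
    obtain ⟨n, hn⟩ := isCharacter_apply_one (isIrr_isCharacter χ.2)
    unfold charDegree
    rw [hn, Complex.natCast_re, Nat.floor_natCast, ← hn, hd]
    push_cast
    ring
  exact_mod_cast h1

end tool

/-- **The form with the quotient `S = G ⧸ Z`**: more classes of elements of order prime to `|Z|` than `|C_S(y)|`, where `y`
is a `p`-element: some character over `c` has degree divisible by `p`. -/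
theorem exists_dvd_quot_f {G : Type u} [Group G] [Finite G] {p : ℕ} [Fact p.Prime] {Z : Subgroup G} [Z.Normal] (hZ : Z ≤ center G) (hZp : ¬ p ∣ Nat.card Z)
    {y : G ⧸ Z} {n : ℕ} (hy : orderOf y = p ^ n) (c : Z →* ℂˣ) {f : ℕ}
    (hf : f ≤ Nat.card {χ : IrrCharacter G // Lies Z c (χ : G → ℂ)})
    (hlt : Nat.card (centralizer ({y} : Set (G ⧸ Z))) < f) :
    ∃ χ : IrrCharacter G, Lies Z c (χ : G → ℂ) ∧ p ∣ charDegree (χ : G → ℂ) := by
  classical
  have hp : p.Prime := Fact.out
  have hco : (p ^ n).Coprime (Nat.card Z) := Nat.Coprime.pow_left n ((hp.coprime_iff_not_dvd).2 hZp)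
  -- the lift
  obtain ⟨u, rfl, hu⟩ : ∃ u : G, (u : G ⧸ Z) = y ∧ u ^ (p ^ n) = 1 := by
    obtain ⟨g, rfl⟩ := QuotientGroup.mk_surjective y
    obtain ⟨a, ha⟩ := (Nat.modEq_and_modEq_iff_modEq_mul hco).2 rfl |> fun _ : (0 : ℕ) ≡ 0 [MOD p ^ n] ∧ _ =>
      (⟨Nat.chineseRemainder hco 1 0, (Nat.chineseRemainder hco 1 0).2⟩ : ∃ a, a ≡ 1 [MOD p ^ n] ∧ a ≡ 0 [MOD Nat.card Z])
    refine ⟨g ^ a, ?_, ?_⟩
    · rw [QuotientGroup.mk_pow]
      have h1 : (g : G ⧸ Z) ^ a = (g : G ⧸ Z) ^ 1 := pow_eq_pow_iff_modEq.2 (by rw [hy]; exact ha.1)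
      rw [h1, pow_one]
    · have h1 : g ^ (p ^ n) ∈ Z := by
        rw [← QuotientGroup.eq_one_iff, QuotientGroup.mk_pow, ← hy]
        exact pow_orderOf_eq_one _
      have h2 : (g ^ (p ^ n)) ^ Nat.card Z = 1 := by
        have h3 := pow_card_eq_one' (G := Z) (x := ⟨g ^ (p ^ n), h1⟩)
        exact congrArg Subtype.val h3
      obtain ⟨b, hb⟩ := (Nat.modEq_zero_iff_dvd).1 ha.2
      calc (g ^ a) ^ (p ^ n) = ((g ^ (p ^ n)) ^ Nat.card Z) ^ b := by
            rw [hb, ← pow_mul, ← pow_mul, ← pow_mul]; ring_nf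
        _ = 1 := by rw [h2, one_pow]
  have hou : orderOf u ∣ p ^ n := orderOf_dvd_of_pow_eq_one hu
  have hw : (orderOf u).Coprime (Nat.card Z) := hco.coprime_dvd_left hou
  -- the centralizer
  have hcent : centralizer ({u} : Set G) =
      (centralizer ({(u : G ⧸ Z)} : Set (G ⧸ Z))).comap (QuotientGroup.mk' Z) := by
    ext x
    rw [mem_centralizer_singleton_iff, mem_comap, mem_centralizer_singleton_iff]
    constructor
    · intro h
      have := congrArg (QuotientGroup.mk' Z) h
      simpa using this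
    · intro h
      have h2 : (x : G ⧸ Z) * u = u * x := h
      have h3 : u⁻¹ * (x * u * x⁻¹) ∈ Z := by
        rw [← QuotientGroup.eq_one_iff, QuotientGroup.mk_mul, QuotientGroup.mk_inv, QuotientGroup.mk_mul,
          QuotientGroup.mk_mul, QuotientGroup.mk_inv, h2, mul_inv_cancel_right, inv_mul_cancel]
      have h4 : IsConj u (u * ((⟨_, h3⟩ : Z) : G)) := by
        rw [isConj_iff]
        exact ⟨x, by simp⟩
      have h5 := congrArg Subtype.val (eq_one_of_conj hZ hw _ h4)
      have h6 : u⁻¹ * (x * u * x⁻¹) = 1 := h5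
      rw [inv_mul_eq_one] at h6
      rw [eq_comm, mul_inv_eq_iff_eq_mul] at h6
      exact h6
  obtain ⟨χ, hl, h0⟩ := exists_zero_over hZ c hw (by
    rw [hcent, card_comap, mul_comm]
    refine Nat.mul_lt_mul_of_pos_left (lt_of_lt_of_le hlt hf) Nat.card_pos)
  refine ⟨χ, hl, ?_⟩
  obtain ⟨M, hM⟩ := Blocks.ExistsModular.exists_isPModular hp
  have hMp : M.IsPrime := hM.2.1.isPrime
  have h1 := H849.OZ.av_sub_mem (χ := χ) hp hMp hM.2.2 u (j := 0) (n := n) (by rw [pow_zero, one_pow, hu])
  have h3 : H732.VZ.av χ u = 0 := Subtype.ext h0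
  rw [h3, pow_zero, zero_sub, Ideal.neg_mem_iff] at h1
  have h4 : H732.VZ.av χ 1 = ((charDegree (χ : G → ℂ) : ℤ) : AlgInt) := by
    apply Subtype.ext
    rw [H732.VZ.av_coe, ← H686.CharKit.charDegree_irr χ]
    simp
  rw [h4, H732.VZ.int_mem_iff hp hMp hM.2.2] at h1
  exact_mod_cast h1

/-- **The defect zero count.**  `p ∥ |S|`, `y ∈ S` of order `p`, `|C_S(y)| = p k`, `|N_S(⟨y⟩)| = w p k`, the subgroups of order
`k` of `C_S(y)` have at most `k'` classes, and there are more than `k' (w ^ 2 + (p - 1)) / w` classes with `MGood m`. -/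
theorem nb_of_dz_f {p m : ℕ} (hp : p.Prime) (hpm : ¬ p ∣ m) {S : Type u} [Group S]
    (hsq : ¬ p ^ 2 ∣ Nat.card S) {y : S} (hy : orderOf y = p) {k w k' : ℕ}
    (hC : Nat.card (centralizer ({y} : Set S)) = p * k)
    (hN : Nat.card (normalizer ((zpowers y : Subgroup S) : Set S)) = w * (p * k))
    (hk' : ∀ C₀ : Subgroup S, C₀ ≤ centralizer {y} → Nat.card C₀ = k → Nat.card (ConjClasses C₀) ≤ k')
    {f : ℕ} (hf : Cnt.{u} f m S) (hlt : k' * (w ^ 2 + (p - 1)) < w * f) : NB p m S := by
  have : Fact p.Prime := ⟨hp⟩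
  refine nb_of_quot fun G _ _ Z _ hZ e hm hperf c hcinj => ?_
  refine exists_dz_quot_f hZ (hm ▸ hpm) (by rwa [Nat.card_congr e.toEquiv]) (y := e.symm y) (k := k) (w := w)
    (k' := k') ?_ ?_ ?_ c (hf G Z hZ e hm hperf c hcinj) ?_ hlt
  · rw [← hy]
    exact orderOf_injective e.symm.toMonoidHom e.symm.injective y
  · rw [card_centralizer_congr e.symm y, hC]
  · rw [card_normalizer_congr e.symm y, hN]
  · intro C₀ hC₀ hcard
    have h1 : C₀.map e.toMonoidHom ≤ centralizer {y} := by
      rintro _ ⟨x, hx, rfl⟩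
      have h2 := hC₀ hx
      rw [mem_centralizer_singleton_iff] at h2 ⊢
      have h3 := congrArg e h2
      rw [map_mul, map_mul, e.apply_symm_apply] at h3
      exact h3
    have h2 : Nat.card (C₀.map e.toMonoidHom) = k := by
      rw [← hcard]
      exact (Nat.card_congr (C₀.equivMapOfInjective e.toMonoidHom e.injective).toEquiv).symm
    have h3 := hk' _ h1 h2
    refine le_trans ?_ h3
    have h4 : Finite (C₀.map e.toMonoidHom) := by
      have : Finite (C₀ : Subgroup (G ⧸ Z)) := inferInstance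
      exact Finite.of_equiv _ (C₀.equivMapOfInjective e.toMonoidHom e.injective).toEquiv
    have h5 : Finite (ConjClasses (C₀.map e.toMonoidHom)) :=
      Finite.of_surjective _ (ConjClasses.mk_surjective (α := C₀.map e.toMonoidHom))
    exact Nat.card_le_card_of_surjective _
      (ConjClasses.map_surjective (f := (C₀.equivMapOfInjective e.toMonoidHom e.injective).symm.toMonoidHom)
        (C₀.equivMapOfInjective e.toMonoidHom e.injective).symm.surjective)

/-- **The centralizer count.** -/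
theorem nb_of_cent_f {p m : ℕ} (hp : p.Prime) (hpm : ¬ p ∣ m) {S : Type u} [Group S] {y : S} {n : ℕ}
    (hy : orderOf y = p ^ n) {f : ℕ} (hf : Cnt.{u} f m S)
    (hlt : Nat.card (centralizer ({y} : Set S)) < f) : NB p m S := by
  have : Fact p.Prime := ⟨hp⟩
  refine nb_of_quot fun G _ _ Z _ hZ e hm hperf c hcinj => ?_
  refine exists_dvd_quot_f hZ (hm ▸ hpm) (y := e.symm y) (n := n) ?_ c (hf G Z hZ e hm hperf c hcinj) ?_
  · rw [← hy]
    exact orderOf_injective e.symm.toMonoidHom e.symm.injective y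
  · rw [card_centralizer_congr e.symm y]
    exact hlt


/-! ### good elements -/

open Cfsg.Agent.H51.Mult Cfsg.Agent.H990.TC

/-- good in every perfect central extension with kernel of order `m` -/
def LGood (m : ℕ) {K : Type v} [Group K] (g : K) : Prop :=
  ∀ (E : Type u) [Group E] [Finite E] (π : E →* K), PCE π → Nat.card π.ker = m →
    ∀ c y : E, π y = g → π (c * y) = π (y * c) → c * y = y * c

/-- **Counting with a list of elements.** -/
theorem cnt_of_list {m : ℕ} {K : Type v} [Group K] {S : Type u} [Group S] (e : S ≃* K) (L : List K)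
    (hL : L.Pairwise fun a b => ¬ IsConj a b) (hg : ∀ g ∈ L, LGood.{u, v} m g) : Cnt L.length m S := by
  classical
  intro G _ _ Z _ hZ i hm hperf c _
  rw [card_over hZ c, card_good hZ c]
  let ι : (G ⧸ Z) ≃* K := i.trans e
  let π : G →* K := ι.toMonoidHom.comp (QuotientGroup.mk' Z)
  have hker : π.ker = Z := by
    ext x
    rw [MonoidHom.mem_ker]
    show ι (QuotientGroup.mk' Z x) = 1 ↔ _
    rw [map_eq_one_iff ι ι.injective]
    exact QuotientGroup.eq_one_iff x
  have hπ : PCE π := ⟨ι.surjective.comp (QuotientGroup.mk'_surjective Z), hker.le.trans hZ, hperf⟩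
  have hcard : Nat.card π.ker = m := by rw [hker, hm]
  have hfin : Finite {C : ConjClasses (G ⧸ Z) // ∃ g : G, ConjClasses.mk (g : G ⧸ Z) = C ∧ Good Z c g} := by
    have : Finite (ConjClasses (G ⧸ Z)) := Finite.of_surjective _ (ConjClasses.mk_surjective (α := G ⧸ Z))
    exact Subtype.finite
  -- the classes
  have key : ∀ k : Fin L.length, ∃ g : G, π g = L.get k := fun k => hπ.surj _
  choose y hy using key
  have hgood : ∀ k, Good Z c (y k) := by
    intro k x hx
    have h1 : π (x⁻¹ * (y k)⁻¹ * x * y k) = 1 := by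
      rw [← hker] at hx
      exact hx
    have h2 : π (x * y k) = π (y k * x) := by
      have h3 : y k * x * (x⁻¹ * (y k)⁻¹ * x * y k) = x * y k := by group
      rw [← h3, map_mul, h1, mul_one]
    have h4 := hg _ (List.get_mem L k) G π hπ hcard x (y k) (hy k) h2
    have h5 : x⁻¹ * (y k)⁻¹ * x * y k = 1 := by
      calc x⁻¹ * (y k)⁻¹ * x * y k = x⁻¹ * (y k)⁻¹ * (x * y k) := by group
        _ = 1 := by rw [h4]; group
    have h6 : (⟨x⁻¹ * (y k)⁻¹ * x * y k, hx⟩ : Z) = 1 := Subtype.ext h5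
    rw [h6, map_one]
  have hinj : Function.Injective fun k : Fin L.length =>
      (⟨ConjClasses.mk ((y k : G) : G ⧸ Z), y k, rfl, hgood k⟩ :
        {C : ConjClasses (G ⧸ Z) // ∃ g : G, ConjClasses.mk (g : G ⧸ Z) = C ∧ Good Z c g}) := by
    intro k l hkl
    by_contra hne
    have h1 : IsConj ((y k : G) : G ⧸ Z) ((y l : G) : G ⧸ Z) :=
      ConjClasses.mk_eq_mk_iff_isConj.1 (congrArg Subtype.val hkl)
    obtain ⟨d, hd⟩ := isConj_iff.1 h1
    have h2 : IsConj (L.get k) (L.get l) := by
      refine isConj_iff.2 ⟨ι d, ?_⟩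
      have h3 := congrArg ι hd
      rw [map_mul, map_mul, map_inv] at h3
      rw [← hy k, ← hy l]
      exact h3
    rcases lt_or_gt_of_ne hne with h3 | h3
    · exact (List.pairwise_iff_get.1 hL k l h3) h2
    · exact (List.pairwise_iff_get.1 hL l k h3) h2.symm
  have h1 := Nat.card_le_card_of_injective _ hinj
  rwa [Nat.card_fin] at h1

/-- **The order of the commutators, from another extension.** -/
theorem pow_of_good {K : Type v} [Group K] {A : Type*} [CommGroup A] (hM : Cfsg.HasSchurMultiplier K A)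
    {L : Type*} [Group L] {σ : L →* K} (hσ : PCE σ) {g : K}
    (hgd : ∀ c y : L, σ y = g → σ (c * y) = σ (y * c) → c * y = y * c) {n : ℕ}
    (hn : Nat.card A ∣ Nat.card σ.ker * n) (hn0 : Nat.card σ.ker ≠ 0)
    {E : Type*} [Group E] {π : E →* K} (hπ : PCE π) {c y : E} (hy : π y = g) (hcy : π (c * y) = π (y * c)) :
    (c * y * c⁻¹ * y⁻¹) ^ n = 1 := by
  obtain ⟨D, _, f, f', hf, hf', hff, hD, -⟩ := Cfsg.Agent.H68.Bounds.exists_common hσ hπ
  obtain ⟨c, rfl⟩ := hf'.surj c
  obtain ⟨y, rfl⟩ := hf'.surj y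
  have hh : ∀ d, σ (f d) = π (f' d) := fun d => DFunLike.congr_fun hff d
  have h1 := card_ker_dvd hM hD
  rw [Cfsg.Agent.H68.Bounds.card_ker_comp hf.surj] at h1
  have h2 : Nat.card f.ker ∣ n := by
    have h3 := h1.trans hn
    exact Nat.dvd_of_mul_dvd_mul_left (Nat.pos_of_ne_zero hn0) h3
  have h3 : f (c * y * c⁻¹ * y⁻¹) = 1 := by
    have h4 := hgd (f c) (f y) (by rw [hh]; exact hy) (by
      rw [← map_mul, ← map_mul, hh, hh, map_mul f', map_mul f']
      exact hcy)
    rw [map_mul, map_mul, map_mul, map_inv, map_inv, h4]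
    group
  have h4 : (⟨c * y * c⁻¹ * y⁻¹, h3⟩ : f.ker) ^ n = 1 := by
    obtain ⟨k, hk⟩ := h2
    rw [hk, pow_mul, pow_card_eq_one', one_pow]
  have h5 : (c * y * c⁻¹ * y⁻¹) ^ n = 1 := congrArg Subtype.val h4
  have h6 := congrArg f' h5
  rw [map_pow, map_one] at h6
  simpa only [map_mul, map_inv] using h6

end Cfsg.Agent.H878.RIM
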