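import Cfsg.Agent.H878.RIM.FiTool

/-!
# S4816, `Fi22`: centralizers in `Fi22` and in `Fi22 : 2` (helper878)

* `card_CA` : bounds of the centralizers in `A = Fi22 : 2`;
* `two_mul_le` : `2 |C_S(g)| ≤ |C_A(g)|` if an outer element commutes with `g`;
* `not_conj_of` : `g` and its image under the outer involution are not conjugate if `|C_A(g)| < 2 |C_S(g)|`.
-/

set_option autoImplicit false
set_option linter.unusedSectionVars false
set_option maxRecDepth 100000
set_option exponentiation.threshold 5000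

namespace Cfsg.Agent.H878.RIM.Fi

open Cfsg Cfsg.Spor Subgroup Cfsg.Agent.H123.Cls Cfsg.Agent.H123.Cls.FiDat
open Cfsg.Agent.H494.F22 (A N N_le_Aut A_le_Aut N_le_A rho rp tau tau_mem_A tau_notMem tau_sq tau_inv tau_conj sw
  rho_injective S A_conj)
open Cfsg.Agent.H494.F22.Row (row)
open Cfsg.Agent.H326.QS.FiRow (cw el_cw chkE el_eq_of_chkE)
open Equiv

theorem card_CA {r : Perm (Fin 3510)} {P : ℕ} (hr : ∀ p : Fin 3510, (r p : ℕ) = lk 12 P p) {l : List (Bool × ℕ)}
    {L : List Ins} {c : ℕ} (h : chkB 3510 12 row 12 P l L c = true) :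
    Nat.card ↥(A ⊓ centralizer ({r} : Set (Perm (Fin 3510)))) ≤ c + 1 := by
  refine card_le_bound (by norm_num) hr h (inf_le_left.trans A_le_Aut) fun σ hσ p => ?_
  have h2 := mem_centralizer_singleton_iff.1 (mem_inf.1 hσ).2
  exact congrArg (fun τ : Perm (Fin 3510) => τ p) h2

theorem two_mul_le {g : Spor.Fi22} {u : Perm (Fin 3510)} (hu : u ∈ A) (hun : u ∉ N) (huc : u * rho g = rho g * u) :
    2 * Nat.card (centralizer ({g} : Set Spor.Fi22)) ≤
      Nat.card ↥(A ⊓ centralizer ({rho g} : Set (Perm (Fin 3510)))) := by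
  have e1 : Nat.card ((centralizer ({g} : Set Spor.Fi22)).map rho) = Nat.card (centralizer ({g} : Set Spor.Fi22)) :=
    (Nat.card_congr ((centralizer ({g} : Set Spor.Fi22)).equivMapOfInjective rho rho_injective).toEquiv).symm
  have hle : (centralizer ({g} : Set Spor.Fi22)).map rho ≤ A ⊓ centralizer ({rho g} : Set (Perm (Fin 3510))) := by
    rintro _ ⟨x, hx, rfl⟩
    have hx1 := mem_centralizer_singleton_iff.1 hx
    refine mem_inf.2 ⟨N_le_A ⟨x, rfl⟩, mem_centralizer_singleton_iff.2 ?_⟩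
    rw [← map_mul, hx1, map_mul]
  have hum : u ∈ A ⊓ centralizer ({rho g} : Set (Perm (Fin 3510))) :=
    mem_inf.2 ⟨hu, mem_centralizer_singleton_iff.2 huc⟩
  obtain ⟨k, hk⟩ := card_dvd_of_le hle
  rw [e1] at hk
  have h0 : 0 < Nat.card ↥(A ⊓ centralizer ({rho g} : Set (Perm (Fin 3510)))) := Nat.card_pos
  have hk0 : k ≠ 0 := by
    rintro rfl
    rw [mul_zero] at hk
    omega
  have hk1 : k ≠ 1 := by
    rintro rfl
    rw [mul_one] at hk
    have h3 : (centralizer ({g} : Set Spor.Fi22)).map rho = A ⊓ centralizer ({rho g} : Set (Perm (Fin 3510))) :=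
      eq_of_le_of_card_ge hle (by rw [hk, e1])
    rw [← h3] at hum
    obtain ⟨x, -, hx⟩ := hum
    exact hun ⟨x, hx⟩
  rw [hk, mul_comm]
  exact Nat.mul_le_mul_left _ (by omega)

theorem not_conj_of {g h : Spor.Fi22} (hh : rho h = tau * rho g * tau⁻¹)
    (hc : Nat.card ↥(A ⊓ centralizer ({rho g} : Set (Perm (Fin 3510)))) <
      2 * Nat.card (centralizer ({g} : Set Spor.Fi22))) : ¬ IsConj g h := by
  intro hgh
  obtain ⟨c, rfl⟩ := isConj_iff.1 hgh
  have hc1 : rho c ∈ N := ⟨c, rfl⟩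
  have h1 := two_mul_le (g := g) (u := (rho c)⁻¹ * tau) (A.mul_mem (A.inv_mem (N_le_A hc1)) tau_mem_A)
    (fun hn => tau_notMem (by
      have h2 := N.mul_mem hc1 hn
      rwa [mul_inv_cancel_left] at h2)) (by
    have h3 : tau * rho g = rho (c * g * c⁻¹) * tau := by rw [hh, inv_mul_cancel_right]
    rw [mul_assoc, h3, map_mul, map_mul, map_inv]
    group)
  omega

/-! ### the outer involution on words -/

theorem sw_lt {x : ℕ} (hx : x < 9) : sw x < 9 := by revert x; decide

theorem rho_sw : ∀ {l : List ℕ}, (∀ x ∈ l, x < 9) → rho (el (l.map sw)) = tau * rho (el l) * tau⁻¹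
  | [], _ => by
    show rho 1 = tau * rho 1 * tau⁻¹
    rw [map_one, mul_one, mul_inv_cancel]
  | x :: l, h => by
    have hx := h x List.mem_cons_self
    rw [List.map_cons, el_cons, map_mul, gn_S (sw_lt hx), rho_sw fun y hy => h y (List.mem_cons_of_mem _ hy), el_cons,
      map_mul, gn_S hx, ← tau_conj hx]
    group

theorem key_tau {g h : Spor.Fi22} (hh : rho h = tau * rho g * tau⁻¹) : key h = key g := by
  unfold key
  refine List.map_congr_left fun k _ => ?_
  rw [hh, pj_conj (A_le_Aut tau_mem_A)]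

/-- the class of the cover is determined by the keys, with the bound of the centralizer -/
theorem card_CA_of_key {g : Spor.Fi22} {s : List ℕ} (hg : key g = s) {c : ℕ}
    (hs : ∀ x ∈ D.map fun x => (x.2.1, x.2.2), x.2 = s → x.1 ≤ c) :
    Nat.card ↥(A ⊓ centralizer ({rho g} : Set (Perm (Fin 3510)))) ≤ c + 1 := by
  obtain ⟨x, hx, r, hrN, hr, b, hb, hgb⟩ := fi_cover (rho g) ⟨g, rfl⟩
  have h1 : keys.map (pj row r) = x.2.2 := key_of_chk (by norm_num) hr (D_sg x hx) (D_len x hx)
  have h2 : key g = x.2.2 := by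
    rw [← h1]
    unfold key
    refine List.map_congr_left fun k _ => ?_
    rw [hgb, pj_conj (A_le_Aut hb)]
  have h3 := hs (x.2.1, x.2.2) (List.mem_map.2 ⟨x, hx, rfl⟩) (by rw [← h2, hg])
  obtain ⟨l, L, h4⟩ := D_bd x hx
  have h5 := card_CA hr h4
  have h6 : Nat.card ↥(A ⊓ centralizer ({rho g} : Set (Perm (Fin 3510)))) =
      Nat.card ↥(A ⊓ centralizer ({r} : Set (Perm (Fin 3510)))) := by
    have e : A ⊓ centralizer ({rho g} : Set (Perm (Fin 3510))) =
        (A ⊓ centralizer ({r} : Set (Perm (Fin 3510)))).map (MulAut.conj b).toMonoidHom := by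
      ext y
      constructor
      · rintro ⟨hy, hyc⟩
        have hyc' := mem_centralizer_singleton_iff.1 hyc
        rw [hgb] at hyc'
        refine ⟨b⁻¹ * y * b, ⟨A.mul_mem (A.mul_mem (A.inv_mem hb) hy) hb, mem_centralizer_singleton_iff.2 ?_⟩, ?_⟩
        · calc b⁻¹ * y * b * r = b⁻¹ * (y * (b * r * b⁻¹)) * b := by group
            _ = b⁻¹ * (b * r * b⁻¹ * y) * b := by rw [hyc']
            _ = r * (b⁻¹ * y * b) := by group
        · show b * (b⁻¹ * y * b) * b⁻¹ = y
          group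
      · rintro ⟨y, ⟨hy, hyc⟩, rfl⟩
        have hyc' := mem_centralizer_singleton_iff.1 hyc
        refine ⟨A.mul_mem (A.mul_mem hb hy) (A.inv_mem hb), mem_centralizer_singleton_iff.2 ?_⟩
        show b * y * b⁻¹ * rho g = rho g * (b * y * b⁻¹)
        rw [hgb]
        calc b * y * b⁻¹ * (b * r * b⁻¹) = b * (y * r) * b⁻¹ := by group
          _ = b * (r * y) * b⁻¹ := by rw [hyc']
          _ = b * r * b⁻¹ * (b * y * b⁻¹) := by group
    rw [e]
    exact (Nat.card_congr (Subgroup.equivMapOfInjective _ _ (MulAut.conj b).injective).toEquiv).symm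
  rw [h6]
  omega

end Cfsg.Agent.H878.RIM.Fi
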