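import Cfsg.Agent.H878.RIM.FiTool

/-!
# S4816, `Fi22`: the good elements, part 1 (helper878)
-/

set_option autoImplicit false
set_option maxRecDepth 1000000
set_option exponentiation.threshold 5000

namespace Cfsg.Agent.H878.RIM.Fi

open Cfsg Cfsg.Spor Cfsg.Agent.H123.Cls.FiDat
open Cfsg.Agent.H326.QS.FiRow (cw)
open Cfsg.Agent.H878.RIM.KTwo Cfsg.Agent.H878.RIM.KThree

theorem ky1 : key (el (cw [7] [3, 8])) = [1024, 0] := key_of cm1 sg1 rfl

theorem gt1 : G2 (el (cw [7] [3, 8])) := g2_of 1 (by decide)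
  (g2_tw [] 7 [8, 7] 3 (by decide +kernel)) (by decide +kernel)

theorem gh1 : G3 (el (cw [7] [3, 8])) := g3_of 2 (by decide) (by decide +kernel)

theorem ky5 : key (el (cw [0, 3] [1, 7])) = [0, 2016] := key_of cm5 sg5 rfl

theorem gt5 : G2 (el (cw [0, 3] [1, 7])) := g2_of 3 (by decide) g2_nil (by decide +kernel)

theorem ky9 : key (el (cw [8, 4] [5, 7, 3])) = [2560, 0] := key_of cm9 sg9 rfl

theorem gh9 : G3 (el (cw [8, 4] [5, 7, 3])) := g3_of 4 (by decide) (by decide +kernel)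

theorem ky17 : key (el (cw [5, 0, 3, 8] [1, 6, 7])) = [880, 1536] := key_of cm17 sg17 rfl

theorem gt17 : G2 (el (cw [5, 0, 3, 8] [1, 6, 7])) := g2_of 3 (by decide)
  (g2_tw [] 7 [8, 7] 3 (by decide +kernel)) (by decide +kernel)

theorem ky22 : key (el (cw [1, 7, 0, 5, 2, 1] [3, 2, 6, 7, 3, 5, 4, 5, 7, 3, 4, 8])) = [2816, 1296] := key_of cm22 sg22 rfl

theorem gt22 : G2 (el (cw [1, 7, 0, 5, 2, 1] [3, 2, 6, 7, 3, 5, 4, 5, 7, 3, 4, 8])) := g2_of 3 (by decide) (g2_tr [] 5) (by decide +kernel)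

theorem ky26 : key (el (cw [1, 7, 6, 3, 0] [1, 2, 4, 3, 5, 4])) = [2112, 768] := key_of cm26 sg26 rfl

theorem gh26 : G3 (el (cw [1, 7, 6, 3, 0] [1, 2, 4, 3, 5, 4])) := g3_of 8 (by decide) (by decide +kernel)

theorem ky30 : key (el (cw [4, 8, 2] [1, 7, 3])) = [972, 1968] := key_of cm30 sg30 rfl

theorem gt30 : G2 (el (cw [4, 8, 2] [1, 7, 3])) := g2_of 9 (by decide) g2_nil (by decide +kernel)

theorem ky34 : key (el (cw [3, 2, 8, 6, 0] [1, 8, 7, 3, 4, 5])) = [2244, 2244] := key_of cm34 sg34 rfl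

theorem gt34 : G2 (el (cw [3, 2, 8, 6, 0] [1, 8, 7, 3, 4, 5])) := g2_of 11 (by decide) g2_nil (by decide +kernel)

theorem gh34 : G3 (el (cw [3, 2, 8, 6, 0] [1, 8, 7, 3, 4, 5])) := g3_of 11 (by decide) (by decide +kernel)

theorem ky48 : key (el (cw [7, 2, 2, 1, 3, 6, 8, 2] [0, 2, 7, 3, 4, 5])) = [2368, 2528] := key_of cm48 sg48 rfl

theorem gh48 : G3 (el (cw [7, 2, 2, 1, 3, 6, 8, 2] [0, 2, 7, 3, 4, 5])) := g3_of 16 (by decide) (by decide +kernel)

theorem ky52 : key (el (cw [5, 1, 8, 4] [6, 7, 3, 2])) = [2228, 2040] := key_of cm52 sg52 rfl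

theorem gh52 : G3 (el (cw [5, 1, 8, 4] [6, 7, 3, 2])) := g3_of 20 (by decide) (by decide +kernel)

theorem ky58 : key (el (cw [0] [0])) = [0, 0] := key_of cm58 sg58 rfl

theorem gt58 : G2 (el (cw [0] [0])) := g2_of 1 (by decide) g2_nil (by decide +kernel)

theorem gh58 : G3 (el (cw [0] [0])) := g3_of 1 (by decide) (by decide +kernel)

end Cfsg.Agent.H878.RIM.Fi
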