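import Cfsg.Agent.H878.RIM.FiNine
import Cfsg.Agent.H559.FiSpec
import Cfsg.Agent.H836.Main

/-!
# S4816: the rows `Fi22`, `p = 3, 7, 11, 13` (helper878)

`nball_three`, `nball_seven`, `nball_eleven`, `nball_thirteen`.
-/

set_option autoImplicit false
set_option linter.unusedSectionVars false
set_option maxRecDepth 1000000
set_option exponentiation.threshold 5000

namespace Cfsg.Agent.H878.RIM.Fi

open Cfsg Cfsg.Spor Subgroup Cfsg.Agent.H123.Cls Cfsg.Agent.H123.Cls.FiDat
open Cfsg.Agent.H494.F22 (A N N_le_A rho rp tau tau_mem_A tau_notMem tau_sq tau_inv sw rho_injective)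
open Cfsg.Agent.H494.F22.Row (row)
open Cfsg.Agent.H326.QS.FiRow (cw el_cw chkE el_eq_of_chkE)
open Cfsg.Agent.H878.RIM Cfsg.Agent.H878.RIM.KTwo Cfsg.Agent.H878.RIM.KThree
open Cfsg.Agent.H665.RIM
open Equiv

universe u

/-- a group of order six which is not abelian has three classes -/
theorem classes_le_three {G : Type*} [Group G] (h6 : Nat.card G = 6) {a b : G} (hab : a * b ≠ b * a) :
    Nat.card (ConjClasses G) ≤ 3 := by
  classical
  have hfin : Finite G := Nat.finite_of_card_ne_zero (by rw [h6]; norm_num)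
  have hZ : Nat.card (center G) = 1 := by
    have h1 := (center G).card_mul_index
    rw [h6] at h1
    by_contra hne
    have hcyc : IsCyclic (G ⧸ center G) := by
      have h2 : Nat.card (center G) ∣ 6 := ⟨_, h1.symm⟩
      have h3 : Nat.card (center G) ≤ 6 := Nat.le_of_dvd (by norm_num) h2
      have h4 : Nat.card (center G) ≠ 0 := Nat.card_pos.ne'
      have h5 : (center G).index = Nat.card (G ⧸ center G) := rfl
      rw [h5] at h1
      obtain ⟨n, hn⟩ : ∃ n, Nat.card (center G) = n := ⟨_, rfl⟩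
      rw [hn] at h1 h2 h3 h4 hne
      have h6' : n = 2 ∨ n = 3 ∨ n = 6 := by
        interval_cases n
        · exact absurd rfl h4
        · exact absurd rfl hne
        · exact Or.inl rfl
        · exact Or.inr (Or.inl rfl)
        · exact absurd h2 (by norm_num)
        · exact absurd h2 (by norm_num)
        · exact Or.inr (Or.inr rfl)
      rcases h6' with rfl | rfl | rfl
      · have : Fact (Nat.Prime 3) := ⟨by norm_num⟩
        exact isCyclic_of_prime_card (p := 3) (by omega)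
      · have : Fact (Nat.Prime 2) := ⟨by norm_num⟩
        exact isCyclic_of_prime_card (p := 2) (by omega)
      · have h7 : Subsingleton (G ⧸ center G) := (Nat.card_eq_one_iff_unique.1 (by omega)).1
        exact isCyclic_of_subsingleton
    have h8 : IsMulCommutative G := MonoidHom.isMulCommutative_of_isCyclic_of_ker_le_center
      (QuotientGroup.mk' (center G)) (by rw [QuotientGroup.ker_mk'])
    exact hab (h8.is_comm.comm a b)
  have h1 := Group.nat_card_center_add_sum_card_noncenter_eq_card G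
  rw [hZ, h6] at h1
  have hfc : Finite (ConjClasses G) := Finite.of_surjective _ (ConjClasses.mk_surjective (α := G))
  have hs : ∑ᶠ x ∈ ConjClasses.noncenter G, Nat.card x.carrier =
      ∑ x ∈ (Set.toFinite (ConjClasses.noncenter G)).toFinset, Nat.card x.carrier :=
    finsum_mem_eq_finite_toFinset_sum _ _
  rw [hs] at h1
  have h2 : (Set.toFinite (ConjClasses.noncenter G)).toFinset.card • 2 ≤
      ∑ x ∈ (Set.toFinite (ConjClasses.noncenter G)).toFinset, Nat.card x.carrier := by
    refine Finset.card_nsmul_le_sum _ _ _ fun x hx => ?_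
    have h3' : x ∈ ConjClasses.noncenter G :=
      (Set.Finite.mem_toFinset (Set.toFinite (ConjClasses.noncenter G))).1 hx
    have h3 : x.carrier.Nontrivial := h3'
    rw [Nat.card_coe_set_eq]
    exact (Set.one_lt_ncard (Set.toFinite _)).2 (by
      obtain ⟨u, hu, v, hv, huv⟩ := h3
      exact ⟨u, hu, v, hv, huv⟩)
  rw [smul_eq_mul, ← Set.ncard_eq_toFinset_card _] at h2
  have h4 : (ConjClasses.noncenter G)ᶜ.ncard = 1 := by
    have h5 := (ConjClasses.mk_bijOn G)
    have h6 : (ConjClasses.mk '' ((center G : Set G))) = (ConjClasses.noncenter G)ᶜ := h5.image_eq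
    rw [← h6, h5.injOn.ncard_image]
    exact hZ
  have h5 := Set.ncard_add_ncard_compl (ConjClasses.noncenter G)
  rw [h4] at h5
  omega

section

variable {S : Type u} [Group S] [Finite S]

theorem exists_prime_order (h : Spor.IsoFi22 S) {p : ℕ} (hp : p.Prime) (hd : p ∣ 64561751654400) :
    ∃ y : S, orderOf y = p := by
  have : Fact p.Prime := ⟨hp⟩
  exact exists_prime_orderOf_dvd_card' p (by rw [Cfsg.Agent.H559.FiSpec.card_eq h]; exact hd)

theorem nb_thirteen (h : Spor.IsoFi22 S) {f m : ℕ} (hm : ¬ 13 ∣ m) (hf : Cnt f m S) (hlt : 48 < 6 * f) :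
    NB 13 m S := by
  obtain ⟨y, hy⟩ := exists_prime_order h (p := 13) (by norm_num) (by norm_num)
  refine nb_of_dz_f (p := 13) (by norm_num) hm (y := y) (k := 1) (w := 6) (k' := 1) ?_ hy ?_ ?_ ?_ hf (by omega)
  · rw [Cfsg.Agent.H559.FiSpec.card_eq h]; norm_num
  · rw [Cfsg.Agent.H559.FiSpec.cent13 h hy]
  · obtain ⟨e⟩ := h
    rw [((Cfsg.Agent.H836.Main.thirteen_concl e).2 (zpowers y) (by rw [Nat.card_zpowers, hy])).1]
  · intro C₀ _ hC
    rw [← hC]
    exact Nat.card_le_card_of_surjective _ (ConjClasses.mk_surjective (α := C₀))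

theorem nb_eleven (h : Spor.IsoFi22 S) {f m : ℕ} (hm : ¬ 11 ∣ m) (hf : Cnt f m S) (hlt : 70 < 5 * f) :
    NB 11 m S := by
  obtain ⟨y, hy⟩ := exists_prime_order h (p := 11) (by norm_num) (by norm_num)
  refine nb_of_dz_f (p := 11) (by norm_num) hm (y := y) (k := 2) (w := 5) (k' := 2) ?_ hy ?_ ?_ ?_ hf (by omega)
  · rw [Cfsg.Agent.H559.FiSpec.card_eq h]; norm_num
  · rw [Cfsg.Agent.H559.FiSpec.cent11 h hy]
  · obtain ⟨e⟩ := h
    rw [Cfsg.Agent.H836.Main.card_normalizer_eleven (Cfsg.Agent.H836.inv_of_iso e)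
      (by rw [Nat.card_zpowers, hy])]
  · intro C₀ _ hC
    rw [← hC]
    exact Nat.card_le_card_of_surjective _ (ConjClasses.mk_surjective (α := C₀))

theorem nb_seven (h : Spor.IsoFi22 S) {f m : ℕ} (hm : ¬ 7 ∣ m) (hf : Cnt f m S) (hlt : 126 < 6 * f) :
    NB 7 m S := by
  obtain ⟨y, hy⟩ := exists_prime_order h (p := 7) (by norm_num) (by norm_num)
  have hC := Cfsg.Agent.H559.FiSpec.cent7 h hy
  refine nb_of_dz_f (p := 7) (by norm_num) hm (y := y) (k := 6) (w := 6) (k' := 3) ?_ hy ?_ ?_ ?_ hf (by omega)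
  · rw [Cfsg.Agent.H559.FiSpec.card_eq h]; norm_num
  · rw [hC]
  · obtain ⟨e⟩ := h
    rw [Cfsg.Agent.H836.Main.card_normalizer_seven (Cfsg.Agent.H836.inv_of_iso e)
      (by rw [Nat.card_zpowers, hy])]
  · intro C₀ hle hC₀
    -- two transpositions of `C(y)` which do not commute
    obtain ⟨e⟩ := h
    have I := Cfsg.Agent.H836.inv_of_iso e
    obtain ⟨hy1, hy2⟩ := Cfsg.Agent.H559.FiSpec.pow_ne (by norm_num) hy
    have h3 := I.ctx.seven_card hy1 hy2
    obtain ⟨a, b, c, hab, -, -, hS⟩ := Set.ncard_eq_three.1 h3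
    have ha : a ∈ Cfsg.Agent.LThreeFi22.Fx (Cfsg.Agent.KFacts.FiTT.TK e) y := by rw [hS]; simp
    have hb : b ∈ Cfsg.Agent.LThreeFi22.Fx (Cfsg.Agent.KFacts.FiTT.TK e) y := by rw [hS]; simp
    have hne : a * b ≠ b * a := fun h4 => hab (by
      have h5 := I.ctx.seven_comm hy1 hy2 ha hb h4
      first
        | exact h5
        | exact h5.symm)
    -- involutions of `C(y)` are in `C₀`
    have key : ∀ x ∈ Cfsg.Agent.LThreeFi22.Fx (Cfsg.Agent.KFacts.FiTT.TK e) y, x ∈ C₀ := by
      intro x hx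
      have hxx : x * x = 1 := I.ctx.sq x hx.1
      have hxc : x ∈ centralizer ({y} : Set S) := mem_centralizer_singleton_iff.2 hx.2.symm
      have hzle : zpowers y ≤ centralizer ({y} : Set S) := by
        rw [zpowers_le]; exact mem_centralizer_singleton_iff.2 rfl
      -- `⟨y⟩` is normal in the centralizer, `C = C₀ ⟨y⟩`
      have hcomp : IsComplement' (C₀.subgroupOf (centralizer ({y} : Set S)))
          ((zpowers y).subgroupOf (centralizer ({y} : Set S))) := by
        refine isComplement'_of_coprime ?_ ?_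
        · rw [Nat.card_congr (subgroupOfEquivOfLe hle).toEquiv, Nat.card_congr (subgroupOfEquivOfLe hzle).toEquiv,
            hC₀, Nat.card_zpowers, hy, hC]
        · rw [Nat.card_congr (subgroupOfEquivOfLe hle).toEquiv, Nat.card_congr (subgroupOfEquivOfLe hzle).toEquiv,
            hC₀, Nat.card_zpowers, hy]
          norm_num
      obtain ⟨⟨⟨u, hu⟩, ⟨v, hv⟩⟩, huv⟩ := hcomp.surjective ⟨x, hxc⟩
      have hu' : (u : S) ∈ C₀ := hu
      have hv' : (v : S) ∈ zpowers y := hv
      have huv' : (u : S) * v = x := congrArg Subtype.val huv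
      have hcom : (u : S) * v = v * u := by
        obtain ⟨i, hi⟩ := mem_zpowers_iff.1 hv'
        have h4 : Commute (u : S) y := mem_centralizer_singleton_iff.1 u.2
        rw [← hi]
        exact (h4.zpow_right i).eq
      have h5 : (v : S) * v ∈ C₀ := by
        have h6 : (v : S) * v = (u : S)⁻¹ * (u : S)⁻¹ := by
          have h7 : (u : S) * v * (u * v) = 1 := by rw [huv', hxx]
          have h8 : (u : S) * u * (v * v) = 1 := by
            rw [← h7]
            calc (u : S) * u * (v * v) = u * (u * v) * v := by group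
              _ = u * (v * u) * v := by rw [hcom]
              _ = (u : S) * v * (u * v) := by group
          calc (v : S) * v = (u : S)⁻¹ * (u : S)⁻¹ * (u * u * (v * v)) := by group
            _ = (u : S)⁻¹ * (u : S)⁻¹ := by rw [h8, mul_one]
        rw [h6]
        exact C₀.mul_mem (C₀.inv_mem hu') (C₀.inv_mem hu')
      have h6 : (v : S) ∈ C₀ := by
        have h7 : (v : S) ^ 7 = 1 := by
          obtain ⟨i, hi⟩ := mem_zpowers_iff.1 hv'
          rw [← hi, ← zpow_natCast, ← zpow_mul, mul_comm, zpow_mul, zpow_natCast, hy1, one_zpow]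
        have h8 : (v : S) = ((v : S) * v) ^ 4 := by
          calc (v : S) = (v : S) ^ 7 * v := by rw [h7, one_mul]
            _ = ((v : S) * v) ^ 4 := by rw [← pow_succ, ← pow_two, ← pow_mul]
        rw [h8]
        exact C₀.pow_mem h5 4
      rw [← huv']
      exact C₀.mul_mem hu' h6
    exact classes_le_three hC₀ (a := ⟨a, key a ha⟩) (b := ⟨b, key b hb⟩) (fun h4 => hne (congrArg Subtype.val h4))

theorem nb_three (h : Spor.IsoFi22 S) {f m : ℕ} (hm : ¬ 3 ∣ m) (hf : Cnt f m S) (hlt : 27 < f) : NB 3 m S := by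
  obtain ⟨e⟩ := h
  have h1 : orderOf (e.symm y9) = orderOf y9 := orderOf_injective e.symm.toMonoidHom e.symm.injective y9
  obtain ⟨n, -, hn⟩ := (Nat.dvd_prime_pow Nat.prime_three).1
    (show orderOf y9 ∣ 3 ^ 2 from orderOf_dvd_of_pow_eq_one y9_pow)
  refine nb_of_cent_f (p := 3) (by norm_num) hm (y := e.symm y9) (n := n) (h1.trans hn) hf ?_
  rw [Cfsg.Agent.H620.RIM.card_centralizer_congr e.symm y9]
  exact lt_of_le_of_lt card_y9 hlt

end

/-! ### the classes 11B, 13B -/

/-- the image of the element of order 11 -/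
theorem rho34 : rho (el (cw ([3, 2, 8, 6, 0].map sw) ([1, 8, 7, 3, 4, 5].map sw))) =
    Cfsg.Agent.H494.F22.tau * rho (el (cw [3, 2, 8, 6, 0] [1, 8, 7, 3, 4, 5])) * Cfsg.Agent.H494.F22.tau⁻¹ := by
  have h := rho_sw (l := cw [3, 2, 8, 6, 0] [1, 8, 7, 3, 4, 5]) (by decide)
  exact h

/-- the image of the element of order 13 -/
theorem rho45 : rho (el (cw ([5, 8, 2, 0].map sw) ([1, 3, 4, 7].map sw))) =
    Cfsg.Agent.H494.F22.tau * rho (el (cw [5, 8, 2, 0] [1, 3, 4, 7])) * Cfsg.Agent.H494.F22.tau⁻¹ := by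
  have h := rho_sw (l := cw [5, 8, 2, 0] [1, 3, 4, 7]) (by decide)
  exact h

theorem bound34 : ∀ x ∈ D.map fun x => (x.2.1, x.2.2), x.2 = [2244, 2244] → x.1 ≤ 21 := by
  unfold D
  decide +kernel

theorem bound45 : ∀ x ∈ D.map fun x => (x.2.1, x.2.2), x.2 = [2184, 2184] → x.1 ≤ 12 := by
  unfold D
  decide +kernel

theorem el_ne_one {w : List ℕ} {s : List ℕ} (h : key (el w) = s) (hs : s ≠ [0, 0]) : el w ≠ 1 := by
  intro h1
  apply hs
  have h2 : el (cw [0] [0]) = 1 := el_eq_of_chkE (v := []) (by decide +kernel)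
  rw [← h, h1, ← h2]
  exact ky58

theorem order34 : orderOf (el (cw [3, 2, 8, 6, 0] [1, 8, 7, 3, 4, 5])) = 11 := by
  have : Fact (Nat.Prime 11) := ⟨by norm_num⟩
  refine orderOf_eq_prime ?_ (el_ne_one ky34 (by decide))
  rw [← el_rp, el_eq_of_chkE (v := []) (by decide +kernel)]
  rfl

theorem order45 : orderOf (el (cw [5, 8, 2, 0] [1, 3, 4, 7])) = 13 := by
  have : Fact (Nat.Prime 13) := ⟨by norm_num⟩
  refine orderOf_eq_prime ?_ (el_ne_one ky45 (by decide))
  rw [← el_rp, el_eq_of_chkE (v := []) (by decide +kernel)]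
  rfl

theorem nc34 : ¬ IsConj (el (cw [3, 2, 8, 6, 0] [1, 8, 7, 3, 4, 5]))
    (el (cw ([3, 2, 8, 6, 0].map sw) ([1, 8, 7, 3, 4, 5].map sw))) := by
  refine not_conj_of rho34 ?_
  have h1 := card_CA_of_key ky34 bound34
  rw [Cfsg.Agent.H559.FiSpec.cent11 (M := Spor.Fi22) ⟨MulEquiv.refl _⟩ order34]
  omega

theorem nc45 : ¬ IsConj (el (cw [5, 8, 2, 0] [1, 3, 4, 7]))
    (el (cw ([5, 8, 2, 0].map sw) ([1, 3, 4, 7].map sw))) := by
  refine not_conj_of rho45 ?_
  have h1 := card_CA_of_key ky45 bound45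
  rw [Cfsg.Agent.H559.FiSpec.cent13 (M := Spor.Fi22) ⟨MulEquiv.refl _⟩ order45]
  omega

theorem gt34' : G2 (el (cw ([3, 2, 8, 6, 0].map sw) ([1, 8, 7, 3, 4, 5].map sw))) :=
  g2_of 11 (by decide) g2_nil (by decide +kernel)

theorem gh34' : G3 (el (cw ([3, 2, 8, 6, 0].map sw) ([1, 8, 7, 3, 4, 5].map sw))) :=
  g3_of 11 (by decide) (by decide +kernel)

theorem gt45' : G2 (el (cw ([5, 8, 2, 0].map sw) ([1, 3, 4, 7].map sw))) :=
  g2_of 13 (by decide) g2_nil (by decide +kernel)

theorem gh45' : G3 (el (cw ([5, 8, 2, 0].map sw) ([1, 3, 4, 7].map sw))) :=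
  g3_of 13 (by decide) (by decide +kernel)

theorem only34 : ∀ t ∈ L6, t.2.2 = [2244, 2244] → t.1 = [3, 2, 8, 6, 0] ∧ t.2.1 = [1, 8, 7, 3, 4, 5] := by decide

theorem only45 : ∀ t ∈ L6, t.2.2 = [2184, 2184] → t.1 = [5, 8, 2, 0] ∧ t.2.1 = [1, 3, 4, 7] := by decide

/-- **22 good classes for the kernel of order six** -/
theorem cnt_six' {S : Type u} [Group S] (e : S ≃* Spor.Fi22) : Cnt 22 6 S := by
  have k34 := (key_tau rho34).trans ky34
  have k45 := (key_tau rho45).trans ky45
  have h := cnt_of_list e ((L6.map fun t => el (cw t.1 t.2.1)) ++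
    [el (cw ([3, 2, 8, 6, 0].map sw) ([1, 8, 7, 3, 4, 5].map sw)),
      el (cw ([5, 8, 2, 0].map sw) ([1, 3, 4, 7].map sw))]) (m := 6) (by
    rw [List.pairwise_append]
    refine ⟨pairwise_key key_L6 nodup_L6, ?_, ?_⟩
    · rw [List.pairwise_pair]
      intro hc
      have h1 := key_conj hc
      rw [k34, k45] at h1
      exact absurd h1 (by decide)
    · intro a ha b hb hc
      obtain ⟨t, ht, rfl⟩ := List.mem_map.1 ha
      have h1 := key_conj hc
      rw [key_L6 t ht] at h1
      rw [List.mem_cons, List.mem_singleton] at hb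
      rcases hb with rfl | rfl
      · rw [k34] at h1
        obtain ⟨h2, h3⟩ := only34 t ht h1
        rw [h2, h3] at hc
        exact nc34 hc
      · rw [k45] at h1
        obtain ⟨h2, h3⟩ := only45 t ht h1
        rw [h2, h3] at hc
        exact nc45 hc) (by
    intro g hg
    rw [List.mem_append, List.mem_cons, List.mem_singleton] at hg
    rcases hg with hg | rfl | rfl
    · obtain ⟨t, ht, rfl⟩ := List.mem_map.1 hg
      exact lgood_six (two_L6 t ht) (three_L6 t ht)
    · exact lgood_six gt34' gh34'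
    · exact lgood_six gt45' gh45')
  rw [List.length_append, List.length_map] at h
  exact h

/-! ### the rows -/

variable {S : Type u} [Group S] [Finite S]

/-- **S4816, the row `Fi22`, `p = 3`** -/
theorem nball_three (h : Spor.IsoFi22 S) : NBall 3 S := by
  obtain ⟨e⟩ := h
  exact nball_of e (fun hp => nb_three ⟨e⟩ hp (cnt_two e) (by norm_num)) (fun hp => absurd (dvd_refl 3) hp)
    (fun hp => absurd (by norm_num) hp)

/-- **S4816, the row `Fi22`, `p = 7`** -/
theorem nball_seven (h : Spor.IsoFi22 S) : NBall 7 S := by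
  obtain ⟨e⟩ := h
  exact nball_of e (fun hp => nb_seven ⟨e⟩ hp (cnt_two e) (by norm_num))
    (fun hp => nb_seven ⟨e⟩ hp (cnt_three e) (by norm_num)) (fun hp => nb_seven ⟨e⟩ hp (cnt_six' e) (by norm_num))

/-- **S4816, the row `Fi22`, `p = 11`** -/
theorem nball_eleven (h : Spor.IsoFi22 S) : NBall 11 S := by
  obtain ⟨e⟩ := h
  exact nball_of e (fun hp => nb_eleven ⟨e⟩ hp (cnt_two e) (by norm_num))
    (fun hp => nb_eleven ⟨e⟩ hp (cnt_three e) (by norm_num)) (fun hp => nb_eleven ⟨e⟩ hp (cnt_six' e) (by norm_num))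

/-- **S4816, the row `Fi22`, `p = 13`** -/
theorem nball_thirteen (h : Spor.IsoFi22 S) : NBall 13 S := by
  obtain ⟨e⟩ := h
  exact nball_of e (fun hp => nb_thirteen ⟨e⟩ hp (cnt_two e) (by norm_num))
    (fun hp => nb_thirteen ⟨e⟩ hp (cnt_three e) (by norm_num))
    (fun hp => nb_thirteen ⟨e⟩ hp (cnt_six' e) (by norm_num))

end Cfsg.Agent.H878.RIM.Fi
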