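import Cfsg.Agent.H922.QS.FiThree

/-!
# S4816, `Fi22`: good elements of `3.Fi22` (helper878)

`G3 g`: the elements of `3.Fi22` whose images commute with `g` commute with the lifts of `g`.
* `g3_of_chk` : the traces over `F_2` of the lifts (matrices of degree 54) are not all equal;
* `g3_pow` : `g` is good if a power with exponent prime to three is.
-/

set_option autoImplicit false
set_option linter.unusedSectionVars false

namespace Cfsg.Agent.H878.RIM.KThree

open Cfsg Cfsg.Spor Subgroup Cfsg.Agent.Lib Cfsg.Agent.Lib.F2Mat Cfsg.Agent.Lib.F2MatGroup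
open Cfsg.Agent.H922.QS.FiThree Cfsg.Agent.Fischer

/-! ### central extensions with a kernel of order three -/

section abs

variable {G H : Type*} [Group G] [Group H] {π : G →* H} {s : G}

theorem abs_lift (hk : ∀ x y : G, π y = π x → ∃ i, i < 3 ∧ y = x * s ^ i) (hs : ∀ g : G, s * g = g * s) {c x y : G}
    (h : π y = π x) (hc : c * x = x * c) : c * y = y * c := by
  obtain ⟨i, -, rfl⟩ := hk x y h
  have h1 : s ^ i * c = c * s ^ i := ((show Commute s c from hs c).pow_left i).eq
  rw [← mul_assoc, hc, mul_assoc, mul_assoc, h1]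

theorem abs_pow (hk : ∀ x y : G, π y = π x → ∃ i, i < 3 ∧ y = x * s ^ i) (hs : ∀ g : G, s * g = g * s)
    (hos : orderOf s = 3) {g : H} {n : ℕ} (hn : n % 3 ≠ 0)
    (h : ∀ c y : G, π y = g ^ n → π (c * y) = π (y * c) → c * y = y * c) :
    ∀ c y : G, π y = g → π (c * y) = π (y * c) → c * y = y * c := by
  intro c y hy hc
  have h0 : π (c * y * c⁻¹) = π y := by
    rw [map_mul, hc, map_mul, map_inv, mul_inv_cancel_right]
  obtain ⟨i, hi, h1⟩ := hk _ _ h0
  have hcom : Commute y (s ^ i) := (show Commute y s from (hs y).symm).pow_right i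
  have h2 : c * y ^ n * c⁻¹ = y ^ n * s ^ (i * n) := by
    rw [← conj_pow, h1, hcom.mul_pow, ← pow_mul]
  have h3 : c * y ^ n = y ^ n * c := by
    refine h c (y ^ n) (by rw [map_pow, hy]) ?_
    have h5 : π c * π y = π y * π c := by rw [← map_mul, hc, map_mul]
    rw [map_mul, map_mul, map_pow]
    exact (Commute.pow_right (show Commute (π c) (π y) from h5) n)
  rw [h3, mul_inv_cancel_right] at h2
  have h4 : s ^ (i * n) = 1 := left_eq_mul.1 h2
  have h5 : 3 ∣ i * n := by
    rw [← hos]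
    exact orderOf_dvd_of_pow_eq_one h4
  have h6 : 3 ∣ i := by
    rcases (Nat.Prime.dvd_mul Nat.prime_three).1 h5 with h7 | h7
    · exact h7
    · exact absurd (Nat.mod_eq_zero_of_dvd h7) hn
  have h7 : i = 0 := by omega
  rw [h7, pow_zero, mul_one] at h1
  exact mul_inv_eq_iff_eq_mul.1 h1

theorem abs_trc (hk : ∀ x y : G, π y = π x → ∃ i, i < 3 ∧ y = x * s ^ i) (hs : ∀ g : G, s * g = g * s)
    (hs3 : s ^ 3 = 1) {R : Type*} {τ : G → R} (hτ : ∀ c x : G, τ (c * x * c⁻¹) = τ x) {x : G}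
    (h : ¬ (τ x = τ (x * s) ∧ τ x = τ (x * s ^ 2))) :
    ∀ c y : G, π y = π x → π (c * y) = π (y * c) → c * y = y * c := by
  intro c y hy hc
  refine abs_lift hk hs hy ?_
  have hc' : π c * π x = π x * π c := by
    rw [← hy, ← map_mul, hc, map_mul]
  have h0 : π (c * x * c⁻¹) = π x := by
    rw [map_mul, map_mul, hc', map_inv, mul_inv_cancel_right]
  obtain ⟨i, hi, h1⟩ := hk _ _ h0
  have key : ∀ z : G, (∀ g : G, z * g = g * z) → τ (x * z) = τ (x * (s ^ i * z)) := by
    intro z hz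
    rw [← mul_assoc, ← h1, ← hτ c (x * z)]
    congr 1
    rw [mul_assoc c, mul_assoc x, hz, ← mul_assoc, ← mul_assoc]
  have k0 := key 1 (fun g => by rw [one_mul, mul_one])
  have k1 := key (s ^ i) (fun g => ((show Commute s g from hs g).pow_left i).eq)
  rw [mul_one, mul_one] at k0
  interval_cases i
  · rw [pow_zero, mul_one] at h1
    exact mul_inv_eq_iff_eq_mul.1 h1
  · exfalso
    apply h
    rw [pow_one] at k0 k1
    exact ⟨k0, k0.trans (k1.trans (by rw [pow_two]))⟩
  · exfalso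
    apply h
    have e : s ^ 2 * s ^ 2 = s := by
      rw [← pow_add, show 2 + 2 = 3 + 1 by rfl, pow_add, hs3, one_mul, pow_one]
    rw [e] at k1
    exact ⟨k0.trans k1, k0⟩

end abs

/-- good in `3.Fi22` -/
def G3 (g : Fi22) : Prop := ∀ c y : K3, pi3 y = g → pi3 (c * y) = pi3 (y * c) → c * y = y * c

theorem exists_om (x y : K3) (h : pi3 y = pi3 x) : ∃ i, i < 3 ∧ y = x * om3 ^ i := by
  have h1 : x⁻¹ * y ∈ pi3.ker := by rw [MonoidHom.mem_ker, map_mul, map_inv, h, inv_mul_cancel]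
  rw [ker3, ← mem_powers_iff_mem_zpowers] at h1
  obtain ⟨i, hi⟩ := h1
  have h2 : om3 ^ i = x⁻¹ * y := hi
  refine ⟨i % 3, Nat.mod_lt _ (by norm_num), ?_⟩
  have h3 : om3 ^ (i % 3) = om3 ^ i := by
    conv_lhs => rw [← order_om3]
    exact pow_mod_orderOf om3 i
  rw [h3, h2, mul_inv_cancel_left]

theorem g3_one : G3 1 := by
  intro c y hy _
  exact abs_lift (x := 1) exists_om om3_comm (by rw [hy, map_one]) (by rw [mul_one, one_mul])

/-- a power with exponent prime to three -/
theorem g3_pow {g : Fi22} {n : ℕ} (hn : n % 3 ≠ 0) (h : G3 (g ^ n)) : G3 g :=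
  abs_pow exists_om om3_comm order_om3 hn h

/-! ### traces -/

/-- the trace -/
noncomputable def trc (x : K3) : ZMod 2 :=
  Matrix.trace (((x : K3) : GL (Fin 54) (ZMod 2)) : Matrix (Fin 54) (Fin 54) (ZMod 2))

theorem trc_conj (c x : K3) : trc (c * x * c⁻¹) = trc x := by
  unfold trc
  rw [Subgroup.coe_mul, Subgroup.coe_mul, Units.val_mul, Units.val_mul, Matrix.trace_mul_cycle, ← Units.val_mul,
    ← Subgroup.coe_mul, inv_mul_cancel, Subgroup.coe_one, Units.val_one, one_mul]

theorem g3_of_trc {x : K3} (h : ¬ (trc x = trc (x * om3) ∧ trc x = trc (x * om3 ^ 2))) : G3 (pi3 x) :=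
  abs_trc exists_om om3_comm om3_cube trc_conj h

/-- the matrix of a word -/
def mat3 (w : List Fi22.Gen) : ℕ :=
  List.rec (F2Mat.one 54) (fun y _ ih => force ih fun q => F2Mat.mul 54 (m3 y) q) w

theorem mat3_cons (y : Fi22.Gen) (w : List Fi22.Gen) : mat3 (y :: w) = F2Mat.mul 54 (m3 y) (mat3 w) :=
  force_eq (mat3 w) fun q => F2Mat.mul 54 (m3 y) q

theorem codes_mat3 : ∀ w : List Fi22.Gen, Codes 54 ((wd3 w : K3) : GL (Fin 54) (ZMod 2)) (mat3 w)
  | [] => by
    rw [wd3_nil, Subgroup.coe_one]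
    exact Codes.one 54
  | y :: w => by
    rw [wd3_cons, Subgroup.coe_mul, mat3_cons]
    exact (codes_x3 y).mul (codes_mat3 w)

/-- the trace of a coded matrix -/
def trB (A : ℕ) (n : ℕ) : Bool :=
  Nat.rec false (fun i ih => Bool.xor ih (Nat.beq (Nat.land (Nat.shiftRight A (Nat.mul 55 i)) 1) 1)) n

theorem bz_xor' (a b : Bool) : bz (Bool.xor a b) = bz a + bz b := by
  cases a <;> cases b <;> rfl

theorem trB_eq (A : ℕ) : ∀ n : ℕ, bz (trB A n) = ∑ i ∈ Finset.range n, bz (A.testBit (55 * i))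
  | 0 => rfl
  | n + 1 => by
    rw [Finset.sum_range_succ, ← trB_eq A n]
    have e : trB A (n + 1) = Bool.xor (trB A n) (Nat.beq (Nat.land (Nat.shiftRight A (Nat.mul 55 n)) 1) 1) := rfl
    rw [e, bz_xor']
    congr 2
    have h0 : Nat.land (Nat.shiftRight A (Nat.mul 55 n)) 1 = (A >>> (55 * n)) &&& 1 := rfl
    rw [h0, Nat.and_one_is_mod]
    rw [Bool.eq_iff_iff, Nat.beq_eq]
    have h1 : A.testBit (55 * n) = (A >>> (55 * n)).testBit 0 := by
      rw [Nat.testBit_shiftRight, Nat.add_zero]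
    rw [h1, Nat.testBit_zero, decide_eq_true_eq]

theorem trace_toMat (A : ℕ) : Matrix.trace (toMat 54 A) = bz (trB A 54) := by
  rw [trB_eq, Finset.sum_range]
  unfold Matrix.trace
  refine Finset.sum_congr rfl fun i _ => ?_
  rw [Matrix.diag_apply, toMat_apply]
  congr 2
  omega

theorem trc_eq {x : K3} {A : ℕ} (h : Codes 54 ((x : K3) : GL (Fin 54) (ZMod 2)) A) : trc x = bz (trB A 54) := by
  unfold trc
  unfold Codes at h
  rw [h, trace_toMat]

/-- the traces of the three lifts are not equal -/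
def chkT (w : List Fi22.Gen) : Bool :=
  force (mat3 w) fun A => force (F2Mat.mul 54 A mS) fun B => force (F2Mat.mul 54 B mS) fun C =>
    Bool.or (Bool.xor (trB A 54) (trB B 54)) (Bool.xor (trB A 54) (trB C 54))

theorem g3_of_chk {w : List Fi22.Gen} (h : chkT w = true) : G3 (Fi22PtsRep.wd w) := by
  rw [← pi3_wd3]
  apply g3_of_trc
  unfold chkT at h
  rw [force_eq, force_eq, force_eq] at h
  have hA := codes_mat3 w
  have hB := hA.mul codes_om3
  have hC := hB.mul codes_om3
  rw [← Subgroup.coe_mul] at hB hC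
  rw [← Subgroup.coe_mul] at hC
  rw [mul_assoc, ← pow_two] at hC
  rw [trc_eq hA, trc_eq hB, trc_eq hC]
  rintro ⟨h1, h2⟩
  have h3 := bz_inj h1
  have h4 := bz_inj h2
  rw [← h3, ← h4] at h
  simp at h

end Cfsg.Agent.H878.RIM.KThree
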