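import Cfsg.Agent.H878.RIM.KTwo
import Cfsg.Agent.H878.RIM.KThree
import Cfsg.Agent.H326.QS.FiRow
import Cfsg.Agent.S2053

/-!
# S4816, `Fi22`: tools (helper878)

* `key` : two invariants of the classes of `Fi22` under `Fi22 : 2`;
* `g2_of`, `g3_of` : good elements of `2.Fi22`, `3.Fi22` by words;
* `lgood_two`, `lgood_three`, `lgood_six` : good in every perfect central extension;
* `nball_of` : the kernels of order 2, 3, 6.
-/

set_option autoImplicit false
set_option linter.unusedSectionVars false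
set_option maxRecDepth 100000
set_option exponentiation.threshold 5000

namespace Cfsg.Agent.H878.RIM.Fi

open Cfsg Cfsg.Spor Subgroup Cfsg.Agent.H123.Cls Cfsg.Agent.H123.Cls.FiDat
open Cfsg.Agent.H494.F22 (A N N_le_Aut rho rp)
open Cfsg.Agent.H494.F22.Row (row)
open Cfsg.Agent.H326.QS.FiRow (cw el_cw chkE el_eq_of_chkE)
open Cfsg.Agent.H878.RIM Cfsg.Agent.H878.RIM.KTwo Cfsg.Agent.H878.RIM.KThree
open Cfsg.Agent.H51.Mult Cfsg.Agent.H990.TC
open Cfsg.Agent.H665.RIM

universe u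

/-! ### keys -/

/-- the invariants -/
noncomputable def key (g : Spor.Fi22) : List ℕ := keys.map (pj row (rho g))

theorem key_conj {g h : Spor.Fi22} (hc : IsConj g h) : key g = key h := by
  obtain ⟨c, rfl⟩ := isConj_iff.1 hc
  unfold key
  refine List.map_congr_left fun k _ => ?_
  rw [map_mul, map_mul, map_inv, pj_conj (N_le_Aut ⟨c, rfl⟩)]

theorem key_of {P : ℕ} {a b s : List ℕ} (h1 : chkC 3510 12 gens P a b = true)
    (h2 : chkKey 3510 12 row 12 P keys s = true) (hl : s.length = keys.length) : key (el (cw a b)) = s := by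
  unfold key
  rw [el_cw]
  exact key_of_chk (by norm_num) (fun i => comm_tab h1 i) h2 hl

/-! ### words -/

theorem el_nil : el [] = 1 := rfl

theorem el_rp (w : List ℕ) : ∀ n : ℕ, el (rp n w) = el w ^ n
  | 0 => by rw [pow_zero]; rfl
  | n + 1 => by
    have e : rp (n + 1) w = w ++ rp n w := rfl
    rw [e, el_append, el_rp w n, pow_succ']

theorem gn_mem (x : ℕ) : (PresentedGroup.of (gn x) : Spor.Fi22) ∈ Cfsg.Agent.R01.Fi22Facts.T :=
  Cfsg.Agent.R01.Fi22Facts.gen_mem (gn x)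

theorem mem_T (v : List ℕ) (x : ℕ) : el (v ++ x :: v.reverse) ∈ Cfsg.Agent.R01.Fi22Facts.T := by
  rw [el_append, el_cons, el_reverse, ← mul_assoc]
  exact IsConj.trans (gn_mem x) (isConj_iff.2 ⟨el v, rfl⟩)

theorem g2_nil : G2 (el []) := g2_one

theorem g2_tr (v : List ℕ) (x : ℕ) : G2 (el (v ++ x :: v.reverse)) := g2_T (mem_T v x)

theorem g2_tw (v : List ℕ) (x : ℕ) (v' : List ℕ) (x' : ℕ)
    (h : chkE ((v ++ x :: v.reverse) ++ (v' ++ x' :: v'.reverse))
      ((v' ++ x' :: v'.reverse) ++ (v ++ x :: v.reverse)) = true) :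
    G2 (el ((v ++ x :: v.reverse) ++ (v' ++ x' :: v'.reverse))) := by
  have h1 := el_eq_of_chkE h
  rw [el_append (v ++ x :: v.reverse) (v' ++ x' :: v'.reverse),
    el_append (v' ++ x' :: v'.reverse) (v ++ x :: v.reverse)] at h1
  rw [el_append (v ++ x :: v.reverse) (v' ++ x' :: v'.reverse)]
  by_cases h2 : el (v ++ x :: v.reverse) = el (v' ++ x' :: v'.reverse)
  · rw [← h2, inv22.ctx.sq _ (mem_T v x)]
    exact g2_one
  · exact g2_pair (mem_T v x) (mem_T v' x') h2 h1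

/-- good in `2.Fi22` by an odd power -/
theorem g2_of {w : List ℕ} (n : ℕ) (hn : n % 2 = 1) {v : List ℕ} (hv : G2 (el v)) (h : chkE (rp n w) v = true) :
    G2 (el w) := by
  refine g2_pow (Nat.odd_iff.2 hn) ?_
  rw [← el_rp, el_eq_of_chkE h]
  exact hv

/-- good in `3.Fi22` by a power prime to three -/
theorem g3_of {w : List ℕ} (n : ℕ) (hn : n % 3 ≠ 0) (h : chkE (rp n w) [] = true) : G3 (el w) := by
  refine g3_pow hn ?_
  rw [← el_rp, el_eq_of_chkE h]
  exact g3_one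

/-- good in `3.Fi22` by the traces -/
theorem g3_tr {w : List ℕ} (h : chkT (w.map gn) = true) : G3 (el w) := by
  have h1 := g3_of_chk h
  have e : Cfsg.Agent.Fischer.Fi22PtsRep.wd (w.map gn) = el w := by
    unfold Cfsg.Agent.Fischer.Fi22PtsRep.wd el
    rw [List.map_map]
    congr 1
  rwa [e] at h1

/-- good in `3.Fi22` by the traces of a power -/
theorem g3_trp {w : List ℕ} (n : ℕ) (hn : n % 3 ≠ 0) (h : chkT ((rp n w).map gn) = true) : G3 (el w) := by
  refine g3_pow hn ?_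
  rw [← el_rp]
  exact g3_tr h

/-! ### all perfect central extensions -/

theorem hM : Cfsg.HasSchurMultiplier Spor.Fi22 (Multiplicative (ZMod 6)) := Cfsg.Agent.S2053.result

theorem pow_two_ext {g : Spor.Fi22} (h : G2 g) {E : Type*} [Group E] {π : E →* Spor.Fi22} (hπ : PCE π) {c y : E}
    (hy : π y = g) (hcy : π (c * y) = π (y * c)) : (c * y * c⁻¹ * y⁻¹) ^ 3 = 1 :=
  pow_of_good hM KTwo.pce (g := g) h (n := 3)
    (by rw [KTwo.card_ker, Cfsg.Agent.H326.QS.FiRow.card6]) (by rw [KTwo.card_ker]; norm_num) hπ hy hcy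

theorem pow_three_ext {g : Spor.Fi22} (h : G3 g) {E : Type*} [Group E] {π : E →* Spor.Fi22} (hπ : PCE π) {c y : E}
    (hy : π y = g) (hcy : π (c * y) = π (y * c)) : (c * y * c⁻¹ * y⁻¹) ^ 2 = 1 :=
  pow_of_good hM Cfsg.Agent.H922.QS.FiThree.pce3 (g := g) h (n := 2)
    (by rw [Cfsg.Agent.H922.QS.FiThree.card_ker3, Cfsg.Agent.H326.QS.FiRow.card6])
    (by rw [Cfsg.Agent.H922.QS.FiThree.card_ker3]; norm_num) hπ hy hcy

theorem pow_card {E : Type*} [Group E] {π : E →* Spor.Fi22} {c y : E} (hcy : π (c * y) = π (y * c)) :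
    (c * y * c⁻¹ * y⁻¹) ^ Nat.card π.ker = 1 := by
  have h1 : c * y * c⁻¹ * y⁻¹ ∈ π.ker := by
    rw [MonoidHom.mem_ker, map_mul, map_mul, hcy, map_mul, map_inv, map_inv, mul_inv_cancel_right, mul_inv_cancel]
  have h2 : (⟨_, h1⟩ : π.ker) ^ Nat.card π.ker = 1 := pow_card_eq_one'
  exact congrArg Subtype.val h2

theorem eq_of_pow {E : Type*} [Group E] {c y : E} (h2 : (c * y * c⁻¹ * y⁻¹) ^ 2 = 1) (h3 : (c * y * c⁻¹ * y⁻¹) ^ 3 = 1) :
    c * y = y * c := by
  have h1 : c * y * c⁻¹ * y⁻¹ = 1 := by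
    rw [pow_succ, h2, one_mul] at h3
    exact h3
  have h4 : c * y * c⁻¹ = y := mul_inv_eq_one.1 h1
  exact mul_inv_eq_iff_eq_mul.1 h4

theorem lgood_two {g : Spor.Fi22} (h : G2 g) : LGood.{u, 0} 2 g := by
  intro E _ _ π hπ hcard c y hy hcy
  have h1 := pow_card (π := π) hcy
  rw [hcard] at h1
  exact eq_of_pow h1 (pow_two_ext h hπ hy hcy)

theorem lgood_three {g : Spor.Fi22} (h : G3 g) : LGood.{u, 0} 3 g := by
  intro E _ _ π hπ hcard c y hy hcy
  have h1 := pow_card (π := π) hcy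
  rw [hcard] at h1
  exact eq_of_pow (pow_three_ext h hπ hy hcy) h1

theorem lgood_six {g : Spor.Fi22} (h : G2 g) (h' : G3 g) : LGood.{u, 0} 6 g := by
  intro E _ _ π hπ _ c y hy hcy
  exact eq_of_pow (pow_three_ext h' hπ hy hcy) (pow_two_ext h hπ hy hcy)

/-- the kernels have order 2, 3 or 6 -/
theorem nball_of {p : ℕ} {S : Type u} [Group S] (e : S ≃* Spor.Fi22) (h2 : ¬ p ∣ 2 → NB p 2 S)
    (h3 : ¬ p ∣ 3 → NB p 3 S) (h6 : ¬ p ∣ 6 → NB p 6 S) : NBall p S := by
  intro m hm hpm E _ _ π hπ hcen hperf hcard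
  have hP : PCE (e.toMonoidHom.comp π) := by
    refine ⟨e.surjective.comp hπ, ?_, hperf⟩
    intro x hx
    apply hcen
    rw [MonoidHom.mem_ker] at hx ⊢
    exact (map_eq_one_iff e e.injective).1 hx
  have hk : (e.toMonoidHom.comp π).ker = π.ker := by
    ext x
    rw [MonoidHom.mem_ker, MonoidHom.mem_ker]
    exact map_eq_one_iff e e.injective
  have h1 := card_ker_dvd hM hP
  rw [hk, hcard, Cfsg.Agent.H326.QS.FiRow.card6] at h1
  have h4 : m ≤ 6 := Nat.le_of_dvd (by norm_num) h1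
  have h5 : m = 2 ∨ m = 3 ∨ m = 6 := by
    interval_cases m
    · exact Or.inl rfl
    · exact Or.inr (Or.inl rfl)
    · exact absurd h1 (by norm_num)
    · exact absurd h1 (by norm_num)
    · exact Or.inr (Or.inr rfl)
  rcases h5 with rfl | rfl | rfl
  · exact h2 hpm E π hπ hcen hperf hcard
  · exact h3 hpm E π hπ hcen hperf hcard
  · exact h6 hpm E π hπ hcen hperf hcard

/-- a list of words with different keys -/
theorem pairwise_key {L : List (List ℕ × List ℕ × List ℕ)} (h : ∀ t ∈ L, key (el (cw t.1 t.2.1)) = t.2.2)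
    (hn : (L.map fun t => t.2.2).Nodup) :
    (L.map fun t => el (cw t.1 t.2.1)).Pairwise fun a b => ¬ IsConj a b := by
  rw [List.pairwise_map]
  rw [List.Nodup, List.pairwise_map] at hn
  refine hn.imp_of_mem fun {a b} ha hb hab hc => hab ?_
  rw [← h a ha, ← h b hb]
  exact key_conj hc

end Cfsg.Agent.H878.RIM.Fi
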