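import Cfsg.Agent.H878.RIM.Cnt
import Cfsg.Agent.R08.FiTwentyThree
import Cfsg.Agent.H836.Facts

/-!
# S4816, `Fi22`: good elements of `2.Fi22` (helper878)

`2.Fi22` is the centralizer `K` of a transposition of `Fi23`. `G2 g`: the elements of `K` whose images commute with `g`
commute with the lifts of `g`.
* `g2_T`, `g2_pair` : transpositions and products of two commuting transpositions;
* `g2_pow` : `g` is good if an odd power is.
-/

set_option autoImplicit false
set_option linter.unusedSectionVars false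

namespace Cfsg.Agent.H878.RIM.KTwo

open Cfsg Cfsg.Spor Subgroup
open Cfsg.Agent.H51.Mult
open Cfsg.Agent.Fischer.Fi23Class (K)
open Cfsg.Agent.R08.FiTwentyThree (pi ext lifted S zK pi_surjective pi_ker central zz zK_ne perfect N mem_N)
open Cfsg.Agent.R01 (Fi22Facts.T)

theorem ker_eq : pi.ker = N := by
  ext x
  rw [MonoidHom.mem_ker, pi_ker, mem_N]

theorem ker_le : pi.ker ≤ center K := by
  intro x hx
  rw [mem_center_iff]
  intro g
  rcases (pi_ker x).1 hx with rfl | rfl
  · rw [mul_one, one_mul]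
  · exact (central g).symm

theorem pce : PCE pi := ⟨pi_surjective, ker_le, perfect⟩

theorem card_ker : Nat.card pi.ker = 2 := by
  rw [ker_eq]
  show Nat.card (Subgroup.zpowers zK) = 2
  rw [Nat.card_zpowers]
  exact orderOf_eq_prime (by rw [pow_two]; exact zz) zK_ne

/-- good in `2.Fi22` -/
def G2 (g : Fi22) : Prop := ∀ c y : K, pi y = g → pi (c * y) = pi (y * c) → c * y = y * c

theorem eq_or {x y : K} (h : pi x = pi y) : x = y ∨ x = y * zK := (ext.map_eq).1 h

/-- the lift does not matter -/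
theorem comm_lift {c x y : K} (h : pi y = pi x) (hc : c * x = x * c) : c * y = y * c := by
  rcases eq_or h with rfl | rfl
  · exact hc
  · rw [← mul_assoc, hc, mul_assoc, ← central, ← mul_assoc]

theorem g2_one : G2 1 := by
  intro c y hy _
  exact comm_lift (x := 1) (by rw [hy, map_one]) (by rw [mul_one, one_mul])

theorem g2_T {t : Fi22} (ht : t ∈ Fi22Facts.T) : G2 t := by
  intro c y hy hc
  obtain ⟨x, hx, rfl⟩ := lifted.surj t ht
  refine comm_lift hy ?_
  have h1 : pi (c * x * c⁻¹) = pi x := by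
    rw [map_mul, map_mul, map_inv, ← hy, ← map_mul, hc, map_mul, mul_inv_cancel_right]
  have h2 := lifted.inj _ (lifted.conj c x hx) _ hx h1
  exact mul_inv_eq_iff_eq_mul.1 h2

theorem inv22 : Cfsg.Agent.H836.Inv Spor.Fi22 Fi22Facts.T := by
  have h := Cfsg.Agent.H836.inv_of_iso (MulEquiv.refl Spor.Fi22)
  have e : Cfsg.Agent.KFacts.FiTT.TK (MulEquiv.refl Spor.Fi22) = Fi22Facts.T := by
    ext x
    constructor
    · rintro ⟨y, hy, h1⟩
      have h2 : y = x := h1
      rw [← h2]
      exact hy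
    · intro hx
      exact ⟨x, hx, rfl⟩
  rw [e] at h
  exact h

theorem g2_pair {a b : Fi22} (ha : a ∈ Fi22Facts.T) (hb : b ∈ Fi22Facts.T) (hab : a ≠ b) (hc : a * b = b * a) :
    G2 (a * b) := by
  intro c y hy hcy
  obtain ⟨x, hx, rfl⟩ := lifted.surj a ha
  obtain ⟨x', hx', rfl⟩ := lifted.surj b hb
  have hxx := lifted.comm x hx x' hx' hc
  refine comm_lift (x := x * x') (by rw [hy, map_mul]) ?_
  have h0 : pi c * (pi x * pi x') = pi x * pi x' * pi c := by
    rw [← hy, ← map_mul, hcy, map_mul]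
  suffices h : c * (x * x') * c⁻¹ = x * x' from mul_inv_eq_iff_eq_mul.1 h
  have e : c * (x * x') * c⁻¹ = (c * x * c⁻¹) * (c * x' * c⁻¹) := by group
  rw [e]
  rcases inv22.ctx.cz _ ha _ hb hab hc (pi c) h0 with ⟨h1, h2⟩ | ⟨h1, h2⟩
  · have k1 := lifted.inj _ (lifted.conj c x hx) _ hx (by
      rw [map_mul, map_mul, map_inv, h1, mul_inv_cancel_right])
    have k2 := lifted.inj _ (lifted.conj c x' hx') _ hx' (by
      rw [map_mul, map_mul, map_inv, h2, mul_inv_cancel_right])
    rw [k1, k2]
  · have k1 := lifted.inj _ (lifted.conj c x hx) _ hx' (by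
      rw [map_mul, map_mul, map_inv, h1])
    have k2 := lifted.inj _ (lifted.conj c x' hx') _ hx (by
      rw [map_mul, map_mul, map_inv, h2])
    rw [k1, k2, hxx]

theorem g2_pow {g : Fi22} {n : ℕ} (hn : Odd n) (h : G2 (g ^ n)) : G2 g := by
  intro c y hy hc
  have hz : pi (y⁻¹ * (c * y * c⁻¹)) = 1 := by
    rw [map_mul, map_mul, hc, map_mul, map_inv, map_inv, mul_inv_cancel_right, inv_mul_cancel]
  have hconj : c * y * c⁻¹ = y * (y⁻¹ * (c * y * c⁻¹)) := by group
  rcases (pi_ker _).1 hz with h1 | h1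
  · rw [h1, mul_one] at hconj
    exact mul_inv_eq_iff_eq_mul.1 hconj
  · exfalso
    rw [h1] at hconj
    have h2 : Commute y zK := (central y).symm
    have h3 : c * y ^ n * c⁻¹ = y ^ n * zK := by
      obtain ⟨k, rfl⟩ := hn
      rw [← conj_pow, hconj, h2.mul_pow, pow_add zK, pow_mul, pow_two, zz, one_pow, one_mul, pow_one]
    have h4 : c * y ^ n = y ^ n * c := by
      refine h c (y ^ n) (by rw [map_pow, hy]) ?_
      have h5 : pi c * pi y = pi y * pi c := by rw [← map_mul, hc, map_mul]
      rw [map_mul, map_mul, map_pow]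
      exact (Commute.pow_right (show Commute (pi c) (pi y) from h5) n)
    rw [h4, mul_inv_cancel_right] at h3
    exact zK_ne (mul_left_cancel (a := y ^ n) (by rw [← h3, mul_one]))

end Cfsg.Agent.H878.RIM.KTwo
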